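import Cfsg.Agent.H794.GUT.Preg
import Cfsg.Agent.H501.GU.Tau
import Cfsg.Agent.H531.GU.R2
import Cfsg.Agent.H623.GU.Tower

/-!
# R4 for groups (S4537, helper794)

For type data `T` given by the columns of matrices (`ρ : G →* GL (Fin n) F` injective, `T.typ g [y] = mcol (ρ g) y`):
* `pow_dvd_matrix`, `pow_dvd_iff` : `p ^ k ∣ orderOf g` if and only if `g` has an eigenvalue `y` with `p ^ k ∣ orderOf y`;
* `omT_tauP` : (R4) in the form of `RzHyp.tau`;
* `omT_tau1` : the version for the elements with order not divisible by `p ^ 2` (the hypothesis `htau1` of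
  `Rz.sameBlock_of_fam`).
-/

set_option autoImplicit false

open Module Polynomial

namespace Cfsg.Agent.H794.GUT

open Cfsg Cfsg.Agent.H615.GU Cfsg.Agent.H577.GLB.Std

universe u v w

section powdvd

variable {F : Type u} [Field F] {K : Type v} [Field K] [Algebra F K] {Q : ℤ} {n p k : ℕ}

/-- the order of a matrix and the orders of its eigenvalues -/
theorem pow_dvd_matrix [Finite K] (hp : p.Prime) (hpF : (p : F) ≠ 0) (hk : 0 < k) (A : GL (Fin n) F)
    (hs : ((A : Matrix (Fin n) (Fin n) F).charpoly.map (algebraMap F K)).Splits) :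
    p ^ k ∣ orderOf A ↔ ∃ y : Kˣ, mcol (A : Matrix (Fin n) (Fin n) F) (y : K) ≠ 0 ∧ p ^ k ∣ orderOf y := by
  classical
  have hfF : Finite F := Finite.of_injective _ (algebraMap F K).injective
  set P := (A : Matrix (Fin n) (Fin n) F).charpoly.map (algebraMap F K) with hP
  constructor
  · intro hdvd
    by_contra hcon
    push Not at hcon
    have ho : 0 < orderOf A := orderOf_pos A
    obtain ⟨a, m, hm, ham⟩ := Nat.exists_eq_pow_mul_and_not_dvd ho.ne' p hp.ne_one
    have hroot : ∀ y ∈ P.roots, X - C y ∣ (X ^ (p ^ (k - 1) * m) - 1 : K[X]) := by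
      intro y hy
      have hy1 := isRoot_of_mem_roots hy
      have hy2 := pow_eq_one_of_root A (pow_orderOf_eq_one A) hy1
      have hy0 : y ≠ 0 := by
        rintro rfl
        rw [zero_pow ho.ne'] at hy2
        exact zero_ne_one hy2
      have hc := hcon (Units.mk0 y hy0) ((mcol_ne_zero_iff _ _).2 hy1)
      have hd : orderOf (Units.mk0 y hy0) ∣ p ^ a * m := by
        rw [← ham]
        exact orderOf_dvd_of_pow_eq_one (Units.ext (by rw [Units.val_pow_eq_pow_val, Units.val_mk0, hy2, Units.val_one]))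
      have hpos : 0 < orderOf (Units.mk0 y hy0) := Nat.pos_of_dvd_of_pos hd (by rw [← ham]; exact ho)
      obtain ⟨b, r, hr, hbr⟩ := Nat.exists_eq_pow_mul_and_not_dvd hpos.ne' p hp.ne_one
      have hb : b ≤ k - 1 := by
        by_contra hb
        push Not at hb
        apply hc
        rw [hbr]
        exact Dvd.dvd.mul_right (pow_dvd_pow p (by omega)) r
      have hrm : r ∣ m := by
        have h1 : r ∣ p ^ a * m := (Dvd.intro_left _ hbr.symm).trans hd
        exact (Nat.Coprime.pow_right a ((hp.coprime_iff_not_dvd.2 hr).symm)).dvd_of_dvd_mul_left h1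
      have hd2 : orderOf (Units.mk0 y hy0) ∣ p ^ (k - 1) * m := by
        rw [hbr]
        exact Nat.mul_dvd_mul (pow_dvd_pow p hb) hrm
      have hd3 := congrArg Units.val (orderOf_dvd_iff_pow_eq_one.1 hd2)
      rw [Units.val_pow_eq_pow_val, Units.val_mk0, Units.val_one] at hd3
      rw [dvd_iff_isRoot, IsRoot.def, eval_sub, eval_pow, eval_X, eval_one, hd3, sub_self]
    obtain ⟨M', hM'⟩ : ∃ M', M' = p ^ (k - 1) * m := ⟨_, rfl⟩
    rw [← hM'] at hroot
    have hPdvd : P ∣ (X ^ M' - 1) ^ Multiset.card P.roots := by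
      have hPm : P.Monic := (Matrix.charpoly_monic _).map _
      have h5 : ∀ s : Multiset K, (∀ y ∈ s, X - C y ∣ (X ^ M' - 1 : K[X])) →
          (s.map fun y => X - C y).prod ∣ (X ^ M' - 1) ^ Multiset.card s := by
        intro s
        induction s using Multiset.induction_on with
        | empty => intro _; simp
        | cons a s ih =>
          intro hs
          rw [Multiset.map_cons, Multiset.prod_cons, Multiset.card_cons, pow_succ, mul_comm]
          exact mul_dvd_mul (ih fun y hy => hs y (Multiset.mem_cons_of_mem hy)) (hs a (Multiset.mem_cons_self _ _))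
      have h6 := h5 P.roots hroot
      rwa [← hs.eq_prod_roots_of_monic hPm] at h6
    set r := Multiset.card P.roots
    have hnil : ((A : Matrix (Fin n) (Fin n) F) ^ M' - 1) ^ r = 0 := by
      have h7 : aeval ((A : Matrix (Fin n) (Fin n) F).map (algebraMap F K)) ((X ^ M' - 1 : K[X]) ^ r) = 0 := by
        obtain ⟨c, hc⟩ := hPdvd
        rw [hc, map_mul, hP, ← Matrix.charpoly_map, Matrix.aeval_self_charpoly, zero_mul]
      rw [map_pow, map_sub, map_pow, aeval_X, map_one] at h7
      have h8 : Function.Injective (fun M : Matrix (Fin n) (Fin n) F => M.map (algebraMap F K)) :=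
        Matrix.map_injective (algebraMap F K).injective
      apply h8
      change (((A : Matrix (Fin n) (Fin n) F) ^ M' - 1) ^ r).map (algebraMap F K) = (0 : Matrix (Fin n) (Fin n) F).map _
      rw [Matrix.map_zero _ (map_zero _), ← h7]
      change (algebraMap F K).mapMatrix _ = _
      rw [map_pow, map_sub, map_pow, map_one]
      rfl
    obtain ⟨c, hc⟩ := CharP.exists F
    have hcp : Fact c.Prime := ⟨CharP.char_is_prime F c⟩
    have hcM : CharP (Matrix (Fin n) (Fin n) F) c ∨ n = 0 := by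
      rcases Nat.eq_zero_or_pos n with h9 | h9
      · exact Or.inr h9
      · have : Nonempty (Fin n) := ⟨⟨0, h9⟩⟩
        exact Or.inl (Matrix.charP c)
    have hone : A ^ (M' * c ^ r) = 1 := by
      rcases hcM with hcM | h9
      · apply Units.ext
        rw [Units.val_pow_eq_pow_val, Units.val_one, pow_mul, ← sub_eq_zero]
        have h10 : r ≤ c ^ r := (Nat.lt_pow_self hcp.out.one_lt).le
        have h11 : ((A : Matrix (Fin n) (Fin n) F) ^ M' - 1) ^ c ^ r = 0 := by
          rw [← Nat.sub_add_cancel h10, pow_add, hnil, mul_zero]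
        rw [sub_pow_char_pow_of_commute _ _ (Commute.one_right _), one_pow] at h11
        exact h11
      · subst h9
        exact Subsingleton.elim _ _
    have hdiv : p ^ k ∣ p ^ (k - 1) * m * c ^ r := by
      rw [← hM']
      exact hdvd.trans (orderOf_dvd_of_pow_eq_one hone)
    have hpc : (p ^ k).Coprime (c ^ r) := by
      refine Nat.Coprime.pow _ _ ((Nat.coprime_primes hp hcp.out).2 ?_)
      rintro rfl
      exact hpF (CharP.cast_eq_zero F p)
    have h1 := hpc.dvd_of_dvd_mul_right hdiv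
    have h2 : p ^ k = p ^ (k - 1) * p := by
      rw [← pow_succ]
      congr 1
      omega
    rw [h2] at h1
    exact hm (Nat.dvd_of_mul_dvd_mul_left (pow_pos hp.pos _) h1)
  · rintro ⟨y, hy, hd⟩
    have h1 := pow_eq_one_of_root A (pow_orderOf_eq_one A) ((mcol_ne_zero_iff _ _).1 hy)
    exact hd.trans (orderOf_dvd_of_pow_eq_one (Units.ext (by rw [Units.val_pow_eq_pow_val, h1, Units.val_one])))

variable [Finite K] {G : Type w} [Group G] (T : TypeData (dOrb K Q) Q G n) (ρ : G →* GL (Fin n) F)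
  (hρ : Function.Injective ρ)
  (hT : ∀ g (y : Kˣ), T.typ g (Quotient.mk (orbSetoid K Q) y) = mcol (ρ g : Matrix (Fin n) (Fin n) F) (y : K))
  (hp : p.Prime) (hpF : (p : F) ≠ 0)

include hρ hT hp hpF

theorem pow_dvd_iff (hk : 0 < k) (g : G) :
    p ^ k ∣ orderOf g ↔ ∃ y : Kˣ, T.typ g (Quotient.mk (orbSetoid K Q) y) ≠ 0 ∧ p ^ k ∣ orderOf y := by
  rw [← orderOf_injective ρ hρ g, pow_dvd_matrix (K := K) hp hpF hk (ρ g) (splits_of_tdeg _ (hT g) (T.deg g))]
  exact exists_congr fun y => by rw [hT]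

variable {θ : K →*₀ ℂ} {M N : ℕ} [NeZero M]

/-- **(R4)** in the form of `RzHyp.tau` -/
theorem omT_tauP (ctx : CtxQ θ Q M N) (hn : n ≤ N) {x : RS M} (hx : x ∈ GenR Q M) :
    H623.GU.omT θ M T (tauP Q M p x) = H608.BlockRank.pReg p (H623.GU.omT θ M T x) := by
  classical
  funext g
  have h1 := H501.GU.evR_tauP (θ := θ) (p := p) ctx.card ctx.unit ctx.inj hp ctx.dvd (H531.GU.evR_X_mul θ Q M H521.GU.i2s)
    hx (T.typ g) (by rw [T.deg]; exact hn)
  rw [H623.GU.omT_apply, h1]
  change _ = if IsPRegular p g then H623.GU.omT θ M T x g else 0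
  have h2 : PregT Q p (T.typ g) ↔ IsPRegular p g := by
    rw [pregT_iff T ρ hρ hT hp hpF g, IsPRegular, Nat.coprime_comm, hp.coprime_iff_not_dvd]
  simp only [h2]
  rfl

/-- the version for the elements with order not divisible by `p ^ 2` -/
theorem omT_tau1 (ctx : CtxQ θ Q M N) (hn : n ≤ N) {x : RS M} (hx : x ∈ GenR Q M) (g : G) :
    H623.GU.omT θ M T (H941.GLn.FamOne.tau1 Q M p x) g =
      (open Classical in if p ^ 2 ∣ orderOf g then 0 else 1) * H623.GU.omT θ M T x g := by
  classical
  have h1 := H501.GU.evR_tau1 (θ := θ) (p := p) ctx.card ctx.unit ctx.inj hp ctx.dvd (H531.GU.evR_X_mul θ Q M H521.GU.i2s)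
    hx (T.typ g) (by rw [T.deg]; exact hn)
  rw [H623.GU.omT_apply, h1]
  have h2 : (∀ y : Kˣ, T.typ g (Quotient.mk (orbSetoid K Q) y) ≠ 0 → ¬ p ^ 2 ∣ orderOf y) ↔ ¬ p ^ 2 ∣ orderOf g := by
    rw [pow_dvd_iff T ρ hρ hT hp hpF two_pos g]
    push Not
    rfl
  by_cases h3 : p ^ 2 ∣ orderOf g
  · rw [if_pos h3, if_neg (fun h4 => h2.1 h4 h3), zero_mul]
  · rw [if_neg h3, if_pos (h2.2 h3), one_mul]
    rfl

end powdvd

end Cfsg.Agent.H794.GUT
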